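import Cfsg.Agent.H20.He.Words
import Cfsg.Agent.H336.LinFour.Basic
import Cfsg.Agent.H336.LinFour.Equiv

/-!
# S1918, the row `He`: `He` has no `E_16` with full automiser `GL_4(2)` and centraliser `O × E_16`
-/

set_option autoImplicit false

namespace Cfsg.Agent.H20.He

open Subgroup Cfsg.Agent.H336.LinFour

/-- the centraliser of an element of `A#` has at least `21504` elements in `N_K(A)` -/
theorem cent_le {K : Type*} [Group K] [Finite K] {th : V → K} {O K0 : Subgroup K} (h : Sit th O K0) {v : V}
    (hv : v ≠ 0) (hc : Nat.card (centralizer ({th v} : Set K)) ≤ 21504) :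
    centralizer ({th v} : Set K) ≤ normalizer (h.A : Set K) := by
  set N := normalizer (h.A : Set K) with hN
  set D : Subgroup N := (centralizer ({th v} : Set K)).subgroupOf N with hD
  have hne : ∀ n : N, act (h.rep n) v ≠ 0 := by
    intro n h0
    have h1 := h.rep_spec n v
    rw [h0, h.zero, mul_inv_eq_one, mul_eq_left] at h1
    exact hv ((h.eq_one_iff v).1 h1)
  have hidx : D.index ≤ 15 := by
    have hcard : Nat.card {u : V // u ≠ 0} = 15 := by
      rw [Nat.card_eq_fintype_card]
      decide
    rw [← hcard]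
    apply Nat.card_le_card_of_injective
      (fun q : N ⧸ D => Quotient.liftOn' q (fun n : N => (⟨act (h.rep n) v, hne n⟩ : {u : V // u ≠ 0})) (by
        intro a b hab
        rw [QuotientGroup.leftRel_apply] at hab
        apply Subtype.ext
        change act (h.rep a) v = act (h.rep b) v
        apply h.inj
        rw [← h.rep_spec, ← h.rep_spec]
        have h1 : (a : K)⁻¹ * b ∈ centralizer ({th v} : Set K) := hab
        rw [mem_centralizer_singleton_iff] at h1
        rw [mul_inv_eq_iff_eq_mul]
        calc (a : K) * th v = (a : K) * (th v * ((a : K)⁻¹ * b)) * (b : K)⁻¹ * a := by group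
          _ = (a : K) * ((a : K)⁻¹ * b * th v) * (b : K)⁻¹ * a := by rw [h1]
          _ = _ := by group))
    intro p q
    refine Quotient.inductionOn₂' p q ?_
    intro a b hab
    have h1 : act (h.rep a) v = act (h.rep b) v := congrArg Subtype.val hab
    apply Quotient.sound'
    rw [QuotientGroup.leftRel_apply]
    change (a : K)⁻¹ * b ∈ centralizer ({th v} : Set K)
    rw [mem_centralizer_singleton_iff]
    have h2 : (a : K) * th v * (a : K)⁻¹ = b * th v * (b : K)⁻¹ := by
      rw [h.rep_spec, h.rep_spec, h1]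
    calc (a : K)⁻¹ * b * th v = (a : K)⁻¹ * (b * th v * (b : K)⁻¹) * b := by group
      _ = (a : K)⁻¹ * ((a : K) * th v * (a : K)⁻¹) * b := by rw [h2]
      _ = _ := by group
  have h1 : 20160 * 16 ≤ Nat.card N := Nat.le_of_dvd Nat.card_pos h.card_dvd_normalizer
  have h2 : Nat.card D * D.index = Nat.card N := D.card_mul_index
  have h3 : 21504 ≤ Nat.card D := by
    have h4 : Nat.card D * D.index ≤ Nat.card D * 15 := Nat.mul_le_mul_left _ hidx
    omega
  have h4 : Nat.card D = Nat.card (D.map N.subtype) :=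
    Nat.card_congr (D.equivMapOfInjective _ N.subtype_injective).toEquiv
  have h5 : D.map N.subtype ≤ centralizer ({th v} : Set K) := by
    rintro _ ⟨d, hd, rfl⟩
    exact hd
  have h6 := Subgroup.eq_of_le_of_card_ge h5 (by omega)
  rw [← h6]
  rintro _ ⟨d, -, rfl⟩
  exact d.2

open Cfsg.Agent.KFacts.He.Hyp Cfsg.Agent.KFacts.He.Classes Cfsg.Agent.KFacts.He.Bound in
theorem false_of {th : V → Cfsg.Spor.He} {O K0 : Subgroup Cfsg.Spor.He} (h : Sit th O K0) : False := by
  have hfin : Finite Cfsg.Spor.He := Nat.finite_of_card_ne_zero (by rw [card_he]; norm_num)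
  have hz2 : z * z = 1 := by
    have := z_ne_one
    obtain ⟨ph, F, -⟩ := exists_ph
    have h1 := Cfsg.Agent.KFacts.He.AutP.zx F
    rw [← h1]
    exact Cfsg.Agent.KFacts.He.AutP.sqp F Cfsg.Agent.KFacts.He.AutP.c04 (by decide +kernel)
  have hi : ¬ 2 ∣ (centralizer ({z} : Set Cfsg.Spor.He)).index := by
    have h1 := (centralizer ({z} : Set Cfsg.Spor.He)).card_mul_index
    rw [card_he, card_centralizer] at h1
    omega
  -- all elements of `A#` are conjugate to `z`
  have hconj : ∀ v : V, v ≠ 0 → ∃ g, g * z * g⁻¹ = th v := fun v hv =>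
    h.exists_conj_of_odd_index z_ne_one (n := 1) (by rw [pow_one, pow_two, hz2]) hi hv
  have hcard : ∀ v : V, v ≠ 0 → Nat.card (centralizer ({th v} : Set Cfsg.Spor.He)) = 21504 := by
    intro v hv
    obtain ⟨g, hg⟩ := hconj v hv
    have h3 : centralizer {th v} = (centralizer {z}).map (MulAut.conj g).toMonoidHom := by
      ext x
      rw [mem_centralizer_singleton_iff, mem_map]
      constructor
      · intro hx
        refine ⟨g⁻¹ * x * g, ?_, by simp [mul_assoc]⟩
        rw [mem_centralizer_singleton_iff]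
        have : z = g⁻¹ * th v * g := by rw [← hg]; group
        rw [this]
        calc g⁻¹ * x * g * (g⁻¹ * th v * g) = g⁻¹ * (x * th v) * g := by group
          _ = g⁻¹ * (th v * x) * g := by rw [hx]
          _ = _ := by group
      · rintro ⟨y, hy, rfl⟩
        rw [mem_centralizer_singleton_iff] at hy
        rw [← hg]
        simp only [MulEquiv.coe_toMonoidHom, MulAut.conj_apply]
        calc g * y * g⁻¹ * (g * z * g⁻¹) = g * (y * z) * g⁻¹ := by group
          _ = g * (z * y) * g⁻¹ := by rw [hy]
          _ = _ := by group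
    rw [h3, Subgroup.card_map_of_injective (MulAut.conj g).injective, card_centralizer]
  obtain ⟨v0, hv0⟩ : ∃ v : V, v ≠ 0 := ⟨Pi.single 0 1, by decide⟩
  obtain ⟨g, hg⟩ := hconj v0 hv0
  -- conjugate `A`
  have h' := h.equiv (MulAut.conj g⁻¹)
  have hz0 : (MulAut.conj g⁻¹) (th v0) = z := by
    rw [MulAut.conj_apply, ← hg]; group
  have hcard' : ∀ v : V, v ≠ 0 →
      Nat.card (centralizer ({(MulAut.conj g⁻¹) (th v)} : Set Cfsg.Spor.He)) = 21504 := by
    intro v hv
    have h3 : centralizer {(MulAut.conj g⁻¹) (th v)} = (centralizer {th v}).map (MulAut.conj g⁻¹).toMonoidHom := by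
      ext x
      rw [mem_centralizer_singleton_iff, mem_map]
      constructor
      · intro hx
        refine ⟨g * x * g⁻¹, ?_, by simp [mul_assoc]⟩
        rw [mem_centralizer_singleton_iff]
        rw [MulAut.conj_apply, inv_inv] at hx
        calc g * x * g⁻¹ * th v = g * (x * (g⁻¹ * th v * g)) * g⁻¹ := by group
          _ = g * ((g⁻¹ * th v * g) * x) * g⁻¹ := by rw [hx]
          _ = _ := by group
      · rintro ⟨y, hy, rfl⟩
        rw [mem_centralizer_singleton_iff] at hy
        simp only [MulEquiv.coe_toMonoidHom]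
        rw [← map_mul, ← map_mul, hy]
    rw [h3, Subgroup.card_map_of_injective (MulAut.conj g⁻¹).injective, hcard v hv]
  -- an element of `A` outside of `⟨z⟩`
  obtain ⟨u, hu0, huv⟩ : ∃ u : V, u ≠ 0 ∧ u ≠ v0 := by
    by_contra hcon
    push Not at hcon
    have h1 := hcon (Pi.single 0 1) (by decide)
    have h2 := hcon (Pi.single 1 1) (by decide)
    exact absurd (h1.trans h2.symm) (by decide)
  refine main (A := h'.A) ?_ ?_ ?_ (t := (MulAut.conj g⁻¹) (th u)) ?_ ?_ ?_ ?_
  · rintro _ ⟨a, rfl⟩ _ ⟨b, rfl⟩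
    exact h'.comm a b
  · rintro _ ⟨a, rfl⟩ ha c hc x hx
    have ha0 : a ≠ 0 := by
      rintro rfl
      exact ha h'.zero
    have h1 := cent_le h' ha0 (hcard' a ha0).le
    have h2 : c ∈ normalizer (h'.A : Set Cfsg.Spor.He) := h1 (mem_centralizer_singleton_iff.2 hc)
    exact (mem_normalizer_iff.1 h2 x).1 hx
  · rw [← hz0]
    exact h'.th_mem v0
  · exact h'.th_mem u
  · exact h'.sq u
  · intro h1
    exact hu0 ((h'.eq_one_iff u).1 h1)
  · intro h1
    exact huv (h'.inj (h1.trans hz0.symm))

/-- **the row `He` of S1918** -/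
theorem false_of_he {K : Type*} [Group K] [Finite K] (hK : Cfsg.Spor.IsoHe K) {th : V → K} {O K0 : Subgroup K}
    (h : Sit th O K0) : False := by
  obtain ⟨e⟩ := hK
  exact false_of (h.equiv e)

end Cfsg.Agent.H20.He
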